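import Cfsg.Agent.H2.Loc2
import Cfsg.Agent.PF.FT
import Cfsg.Agent.S0566
import Cfsg.Agent.S0143
import Cfsg.Agent.H1.Hall

/-! The Kegel-Wielandt theorem. -/

namespace Cfsg.Agent.H2
open Subgroup Cfsg.Agent.H8
open scoped commutatorElement

universe u
variable {G : Type u} [Group G] [Finite G]

theorem sylIn_Op_of_nil {p : ℕ} [Fact p.Prime] {A : Subgroup G} (h : Group.IsNilpotent A) :
    SylIn p (Op p A) A := (pcl_of_nilpotent h).sylIn

theorem Op_le_cent_Op {p q : ℕ} [hp : Fact p.Prime] [hq : Fact q.Prime] (h : p ≠ q) (A : Subgroup G) :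
    Op p A ≤ centralizer (Op q A : Set G) :=
  commutator_eq_bot_iff_le_centralizer.1 (commutator_eq_bot_of_inf_eq_bot
    ((Op_le q A).trans (le_normalizer_Op p A)) ((Op_le p A).trans (le_normalizer_Op q A))
    (inf_eq_bot_of_pgroup_coprime (Op_isPGroup p A) (H8.coprime_of_isPGroup (Op_isPGroup q A)
      ((Nat.coprime_primes hp.out hq.out).2 h))))

theorem exists_Op_ne_bot {X : Subgroup G} (h : Group.IsSolvable X) (h1 : X ≠ ⊥) :
    ∃ t : ℕ, t.Prime ∧ Op t X ≠ ⊥ := by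
  by_contra hc
  push Not at hc
  have h2 : Fit X = ⊥ := le_bot_iff.1 (le_of_nilpotent_of_Op_le (Fit_nilpotent X) fun q hq => by
    haveI := Fact.mk hq
    rw [Op_Fit, hc q hq])
  refine h1 (Fs_eq_bot_iff.1 ?_)
  rw [Fs_eq, h2, Lay_eq_bot_of_solvable h, bot_sup_eq]

theorem exists_central_of_nil {X N : Subgroup G} (h : Group.IsNilpotent X) (hN : N ≤ X)
    (hn : X ≤ normalizer (N : Set G)) (h0 : N ≠ ⊥) :
    ∃ z ∈ N, z ≠ 1 ∧ X ≤ centralizer ({z} : Set G) := by
  haveI := (normal_subgroupOf_iff_le_normalizer hN).2 hn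
  have h1 := H1.inf_center_ne_bot h (N.subgroupOf X) (fun e => h0 (by
    rwa [subgroupOf_eq_bot, disjoint_iff, inf_eq_left.2 hN] at e))
  obtain ⟨⟨z, hz⟩, hz1⟩ := ne_bot_iff_exists_ne_one.1 h1
  refine ⟨z, hz.1, fun e => hz1 (Subtype.ext (Subtype.ext e)), fun x hx => ?_⟩
  rw [mem_centralizer_singleton_iff]
  exact congrArg Subtype.val (mem_center_iff.1 hz.2 ⟨x, hx⟩)

/-- A factorization. -/
def Fz (A B L : Subgroup G) : Prop := ∀ g ∈ L, ∃ a ∈ A ⊓ L, ∃ b ∈ B ⊓ L, g = a * b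

omit [Finite G] in
theorem Fz.symm {A B L : Subgroup G} (h : Fz A B L) : Fz B A L := H1.forall_mul_symm h

omit [Finite G] in
theorem fz_top_iff {A B : Subgroup G} : Fz A B ⊤ ↔ ∀ g : G, ∃ a ∈ A, ∃ b ∈ B, g = a * b := by
  simp [Fz]

theorem Fz.sylIn {A B L P : Subgroup G} (h : Fz A B L) {p : ℕ} [Fact p.Prime]
    (hp : ¬ p ∣ Nat.card B) (hP : SylIn p P (A ⊓ L)) : SylIn p P L := by
  have e := (H1.forall_mul_iff_relIndex_eq inf_le_right inf_le_right).1 h.symm
  exact hP.trans_of_not_dvd inf_le_right (fun hd => hp ((e ▸ hd).trans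
    ((relIndex_dvd_card _ _).trans (card_dvd_of_le inf_le_left))))

theorem Fz.le_of_norm {A B L U : Subgroup G} (h : Fz A B L) {p : ℕ} [Fact p.Prime]
    (hp : ¬ p ∣ Nat.card B) (hU : IsPGroup p U) (h1 : U ≤ L) (h2 : L ≤ normalizer (U : Set G)) :
    U ≤ A := by
  obtain ⟨P, hP⟩ := exists_sylIn p (A ⊓ L)
  have := h.sylIn hp hP
  exact (this.normal_le hU h1 (this.le.trans h2)).trans (hP.le.trans inf_le_left)

theorem Fz.normalizer {A B A0 B0 : Subgroup G} (h : Fz A B ⊤) (hA : A ≤ normalizer (A0 : Set G))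
    (hB : B ≤ normalizer (B0 : Set G)) :
    Fz A B (Subgroup.normalizer ((A0 ⊔ B0 : Subgroup G) : Set G)) := by
  intro g hg
  obtain ⟨a, ha, b, hb, rfl⟩ := fz_top_iff.1 h g
  have h3 : a ∈ Subgroup.normalizer ((A0 ⊔ B0 : Subgroup G) : Set G) := by
    have h4 := H8.cj_eq_of_mem_normalizer hg
    refine H8.mem_normalizer_of_cj_le ?_
    rw [H8.cj_sup]
    refine sup_le ((H8.cj_eq_of_mem_normalizer (hA ha)).le.trans le_sup_left) ?_
    have h5 := (H8.cj_mono (le_sup_right : B0 ≤ A0 ⊔ B0) (a * b)).trans h4.le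
    rwa [← H8.cj_cj, H8.cj_eq_of_mem_normalizer (hB hb)] at h5
  exact ⟨a, Subgroup.mem_inf.2 ⟨ha, h3⟩, b, Subgroup.mem_inf.2 ⟨hb, (Subgroup.mul_mem_cancel_left _ h3).1 hg⟩, rfl⟩

theorem Fz.cj_cj {A B : Subgroup G} (h : Fz A B ⊤) (x y : G) : Fz (H8.cj A x) (H8.cj B y) ⊤ := by
  rw [H8.cj_eq_smul, H8.cj_eq_smul]
  exact fz_top_iff.2 (H1.forall_mul_conj_conj (fz_top_iff.1 h) x y)

omit [Finite G] in
theorem Fz.subgroupOf {A B L : Subgroup G} (h : Fz A B L) :
    Fz (A.subgroupOf L) (B.subgroupOf L) ⊤ := by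
  refine fz_top_iff.2 fun g => ?_
  obtain ⟨a, ha, b, hb, e⟩ := h g g.2
  exact ⟨⟨a, ha.2⟩, ha.1, ⟨b, hb.2⟩, hb.1, Subtype.ext e⟩

omit [Finite G] in
theorem Fz.map {G' : Type u} [Group G'] {A B : Subgroup G} (h : Fz A B ⊤) (f : G →* G')
    (hf : Function.Surjective f) : Fz (A.map f) (B.map f) ⊤ := by
  refine fz_top_iff.2 fun g => ?_
  obtain ⟨g, rfl⟩ := hf g
  obtain ⟨a, ha, b, hb, rfl⟩ := fz_top_iff.1 h g
  exact ⟨_, mem_map_of_mem f ha, _, mem_map_of_mem f hb, map_mul f a b⟩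

omit [Finite G] in
theorem nilpotent_subgroupOf {A : Subgroup G} (h : Group.IsNilpotent A) (L : Subgroup G) :
    Group.IsNilpotent (A.subgroupOf L) := by
  have h1 : Group.IsNilpotent ↥(A ⊓ L) := nilpotent_of_le inf_le_left h
  rw [← inf_subgroupOf_right]
  exact nilpotent_of_mulEquiv (subgroupOfEquivOfLe (inf_le_right : A ⊓ L ≤ L)).symm

omit [Finite G] in
theorem nilpotent_cj {A : Subgroup G} (h : Group.IsNilpotent A) (g : G) :
    Group.IsNilpotent (H8.cj A g) := nilpotent_map _ h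

/-- The factorizer of a normal subgroup. -/
theorem Fz.factorizer {A B N : Subgroup G} (h : Fz A B ⊤) [N.Normal] :
    Fz A B ((A ⊔ N) ⊓ (B ⊔ N)) := by
  intro g hg
  obtain ⟨a, ha, b, hb, rfl⟩ := fz_top_iff.1 h g
  have h1 : a ∈ A ⊔ N := mem_sup_left ha
  have h2 : b ∈ B ⊔ N := mem_sup_left hb
  exact ⟨a, mem_inf.2 ⟨ha, h1, (Subgroup.mul_mem_cancel_right _ h2).1 hg.2⟩, b,
    mem_inf.2 ⟨hb, (Subgroup.mul_mem_cancel_left _ h1).1 hg.1, h2⟩, rfl⟩

structure Fac (A B : Subgroup G) : Prop where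
  nA : Group.IsNilpotent A
  nB : Group.IsNilpotent B
  cop : (Nat.card A).Coprime (Nat.card B)
  fz : Fz A B ⊤

omit [Finite G] in
theorem Fac.symm {A B : Subgroup G} (h : Fac A B) : Fac B A := ⟨h.nB, h.nA, h.cop.symm, h.fz.symm⟩

theorem Fac.cj_right {A B : Subgroup G} (h : Fac A B) (g : G) : Fac A (H8.cj B g) :=
  ⟨h.nA, nilpotent_cj h.nB g, by rw [H8.card_cj]; exact h.cop, by
    simpa only [H8.cj_one] using h.fz.cj_cj 1 g⟩

theorem Fac.sylIn {A B : Subgroup G} (h : Fac A B) {p : ℕ} [hp : Fact p.Prime] (hd : p ∣ Nat.card A) :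
    SylIn p (Op p A) ⊤ :=
  h.fz.sylIn (fun h1 => hp.out.one_lt.ne' (Nat.eq_one_of_dvd_coprimes h.cop hd h1))
    (by rw [inf_top_eq]; exact sylIn_Op_of_nil h.nA)

theorem Fac.dvd_or {A B : Subgroup G} (h : Fac A B) {p : ℕ} (hp : p.Prime) (hd : p ∣ Nat.card G) :
    p ∣ Nat.card A ∨ p ∣ Nat.card B := by
  have := H1.forall_mul_iff_card_top.1 (fz_top_iff.1 h.fz)
  exact (Nat.Prime.dvd_mul hp).1 (this ▸ hd.mul_right _)

section simple
variable [IsSimpleGroup G] (hns : ¬ Group.IsSolvable G)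
  (IH : ∀ A B L : Subgroup G, Group.IsNilpotent A → Group.IsNilpotent B → Fz A B L → L ≠ ⊤ →
    Group.IsSolvable L)
variable {A B : Subgroup G}

include hns in
theorem eq_bot_of_top_le_solv {U : Subgroup G} (hs : Group.IsSolvable U)
    (h : ⊤ ≤ normalizer (U : Set G)) : U = ⊥ := by
  rcases (normal_of_top_le h).eq_bot_or_eq_top with e | e
  · exact e
  · subst e
    exact absurd (solvable_of_equiv topEquiv hs) hns

include hns in
theorem Fac.not_pgroup (h : Fac A B) {p : ℕ} [hp : Fact p.Prime] : ¬ IsPGroup p A := by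
  intro hA
  have hB : B ≠ ⊥ := by
    rintro rfl
    have : A = ⊤ := by simpa using H1.sup_eq_top_of_forall_mul (fz_top_iff.1 h.fz)
    subst this
    exact hns (solvable_of_equiv topEquiv (solvable_of_nilpotent h.nA))
  obtain ⟨z, -, hz1, hz⟩ := exists_central_of_nil h.nB le_rfl le_normalizer hB
  obtain ⟨k, hk⟩ := IsPGroup.iff_card.1 hA
  have h1 : B.index ∣ p ^ k := by
    rw [← H1.forall_mul_iff_relIndex_eq_index.1 (fz_top_iff.1 h.fz), ← hk]
    exact relIndex_dvd_card _ _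
  obtain ⟨j, -, hj⟩ := (Nat.dvd_prime_pow hp.out).1 ((index_dvd_of_le hz).trans h1)
  haveI := Fact.mk (S0143.result p j hp.out z hz1 hj)
  haveI : IsCyclic G := isCyclic_of_prime_card rfl
  exact hns inferInstance

include hns in
theorem Fac.exists_prime_ne (h : Fac A B) (p : ℕ) [hp : Fact p.Prime] :
    ∃ q : ℕ, q.Prime ∧ q ≠ p ∧ q ∣ Nat.card A := by
  by_contra hc
  push Not at hc
  refine h.not_pgroup hns (p := p) (IsPGroup.iff_card.2 ⟨_, Nat.eq_prime_pow_of_unique_prime_dvd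
    Nat.card_pos.ne' (fun {q} hq hd => ?_)⟩)
  by_contra h1
  exact hc q hq h1 hd

theorem Fac.sup_eq_top (h : Fac A B) {B0 : Subgroup G} (h0 : B0 ≠ ⊥)
    (hn : B ≤ normalizer (B0 : Set G)) : A ⊔ B0 = ⊤ := by
  have h1 : ncl B0 ⊤ ≤ A ⊔ B0 := ncl_le_iff.2 fun g _ => by
    obtain ⟨a, ha, b, hb, rfl⟩ := fz_top_iff.1 h.fz g
    rw [← H8.cj_cj, H8.cj_eq_of_mem_normalizer (hn hb)]
    exact cj_le_of_mem' le_sup_right (mem_sup_left ha)
  rcases (normal_of_top_le (le_normalizer_ncl B0 ⊤)).eq_bot_or_eq_top with e | e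
  · exact absurd (le_bot_iff.1 ((le_ncl B0 ⊤).trans e.le)) h0
  · exact eq_top_iff.2 (e.ge.trans h1)

include hns in
theorem Fac.eq_bot (h : Fac A B) {r : ℕ} [hr : Fact r.Prime] {U B0 : Subgroup G} (h0 : B0 ≠ ⊥)
    (hn : B ≤ normalizer (B0 : Set G)) (hU : U ≤ Op r A) (h1 : Op r A ≤ normalizer (U : Set G))
    (h2 : B0 ≤ normalizer (U : Set G)) : U = ⊥ := by
  refine eq_bot_of_top_le_solv hns (solvable_of_isPGroup ((Op_isPGroup r A).to_le hU)) ?_
  rw [← h.sup_eq_top h0 hn]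
  refine sup_le ?_ h2
  rw [← Op_sup_Opp_of_nilpotent h.nA r]
  exact sup_le h1 (le_normalizer_of_commutator_eq_bot (commutator_eq_bot_mono
    (commutator_eq_bot_symm (commutator_Op_Opp (p := r) A)) le_rfl hU))

omit hns IH in
theorem normalizer_ne_top {U : Subgroup G} (h1 : U ≠ ⊥) (h2 : U ≠ ⊤) : normalizer (U : Set G) ≠ ⊤ :=
  fun e => (normal_of_top_le e.ge).eq_bot_or_eq_top.elim h1 h2

include hns IH in
theorem Fac.sup_Op (h : Fac A B) {r s : ℕ} [hr : Fact r.Prime] [hs : Fact s.Prime]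
    (h1 : r ∣ Nat.card A) (h2 : s ∣ Nat.card B) : Op r A ⊔ Op s B = ⊤ := by
  by_contra hne
  have hR := h.sylIn h1
  have hS := h.symm.sylIn h2
  have hR0 : Op r A ≠ ⊥ := (sylIn_Op_of_nil h.nA).ne_bot h1
  have hS0 : Op s B ≠ ⊥ := (sylIn_Op_of_nil h.nB).ne_bot h2
  have hF := h.fz.normalizer (le_normalizer_Op r A) (le_normalizer_Op s B)
  have hL := IH _ _ _ h.nA h.nB hF (normalizer_ne_top
    (fun e => hR0 (le_bot_iff.1 (le_sup_left.trans e.le))) hne)
  have hpr : ∀ {t : ℕ} [Fact t.Prime] {P : Subgroup G}, IsPGroup t P → ∀ p : ℕ, p.Prime →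
      p ∣ Nat.card P → p = t := fun {t} ht {P} hP p hp hd => by
    obtain ⟨k, hk⟩ := IsPGroup.iff_card.1 hP
    exact (Nat.prime_dvd_prime_iff_eq hp ht.out).1 (hp.dvd_of_dvd_pow (hk ▸ hd))
  obtain ⟨W, hW, hRW⟩ := H1.exists_hallOf_ge {r, s} hL (U := Op r A)
    (le_sup_left.trans le_normalizer) (fun p hp hd => Or.inl (hpr hR.pgrp p hp hd))
  obtain ⟨k, hk, hSW⟩ := H1.hallOf_conj_le hL hW (U := Op s B)
    (le_sup_right.trans le_normalizer) (fun p hp hd => Or.inr (hpr hS.pgrp p hp hd))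
  obtain ⟨a, ha, b, hb, rfl⟩ := hF k hk
  rw [← H8.cj_eq_smul, ← H8.cj_cj, H8.cj_eq_of_mem_normalizer (le_normalizer_Op s B hb.1),
    H8.cj_le_iff] at hSW
  have hRW' : Op r A ≤ H8.cj W a⁻¹ := by
    have := H8.cj_mono hRW a⁻¹
    rwa [H8.cj_eq_of_mem_normalizer (le_normalizer_Op r A (A.inv_mem ha.1))] at this
  have hWs : Group.IsSolvable (H8.cj W a⁻¹) := solvable_map _ (solvable_of_le hW.1 hL)
  have hWp : ∀ p : ℕ, p.Prime → p ∣ Nat.card (H8.cj W a⁻¹) → p = r ∨ p = s := fun p hp hd =>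
    hW.2.1 p hp (by rwa [H8.card_cj] at hd)
  generalize H8.cj W a⁻¹ = V at *
  obtain ⟨t, ht, h3⟩ := exists_Op_ne_bot hWs (fun e => hR0 (le_bot_iff.1 (hRW'.trans e.le)))
  haveI := Fact.mk ht
  rcases hWp t ht ((dvd_card_of_isPGroup_ne_bot (Op_isPGroup t V) h3).trans
    (card_dvd_of_le (Op_le t V))) with rfl | rfl
  · exact h3 (h.eq_bot hns hS0 (le_normalizer_Op s B) (hR.normal_le (Op_isPGroup t V) le_top
      (hRW'.trans (le_normalizer_Op t V))) (hRW'.trans (le_normalizer_Op t V))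
      (hSW.trans (le_normalizer_Op t V)))
  · exact h3 (h.symm.eq_bot hns hR0 (le_normalizer_Op r A) (hS.normal_le (Op_isPGroup t V) le_top
      (hSW.trans (le_normalizer_Op t V))) (hSW.trans (le_normalizer_Op t V))
      (hRW'.trans (le_normalizer_Op t V)))

include hns IH in
theorem Fac.Op_sup (h : Fac A B) {r : ℕ} [hr : Fact r.Prime] (h1 : r ∣ Nat.card A)
    {B0 : Subgroup G} (h0 : B0 ≠ ⊥) (hn : B ≤ normalizer (B0 : Set G)) : Op r A ⊔ B0 = ⊤ := by
  by_contra hne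
  have hR := h.sylIn h1
  have hR0 : Op r A ≠ ⊥ := (sylIn_Op_of_nil h.nA).ne_bot h1
  have hF := h.fz.normalizer (le_normalizer_Op r A) hn
  have hL := IH _ _ _ h.nA h.nB hF (normalizer_ne_top
    (fun e => hR0 (le_bot_iff.1 (le_sup_left.trans e.le))) hne)
  have hRL : Op r A ≤ normalizer ((Op r A ⊔ B0 : Subgroup G) : Set G) :=
    le_sup_left.trans le_normalizer
  have hBL : B0 ≤ normalizer ((Op r A ⊔ B0 : Subgroup G) : Set G) :=
    le_sup_right.trans le_normalizer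
  generalize normalizer ((Op r A ⊔ B0 : Subgroup G) : Set G) = L at *
  have hr0 : Op r L = ⊥ := h.eq_bot hns h0 hn (hR.normal_le (Op_isPGroup r L) le_top
      (hRL.trans (le_normalizer_Op r L))) (hRL.trans (le_normalizer_Op r L))
      (hBL.trans (le_normalizer_Op r L))
  have h3 : Fit L ≤ centralizer (Op r A : Set G) := by
    refine le_of_nilpotent_of_Op_le (Fit_nilpotent L) fun t ht => ?_
    haveI := Fact.mk ht
    rw [Op_Fit]
    by_cases e : t = r
    · subst e; rw [hr0]; exact bot_le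
    by_cases hB : t ∣ Nat.card B
    · have hA : ¬ t ∣ Nat.card A := fun hA => ht.one_lt.ne' (Nat.eq_one_of_dvd_coprimes h.cop hA hB)
      have h4 : Op t L ≤ B := hF.symm.le_of_norm hA (Op_isPGroup t L) (Op_le t L) (le_normalizer_Op t L)
      have h5 : Op t L ≤ Op t B := (pcl_of_nilpotent h.nB : PCl t B) _ h4 (Op_isPGroup t L)
      obtain ⟨s, hs, hst, hsB⟩ := h.symm.exists_prime_ne hns t
      haveI := Fact.mk hs
      have h6 : Op t L = ⊥ := by
        refine eq_bot_of_top_le_solv hns (solvable_of_isPGroup (Op_isPGroup t L)) ?_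
        rw [← h.sup_Op hns IH h1 hsB]
        exact sup_le (hRL.trans (le_normalizer_Op t L)) (le_normalizer_of_le_centralizer
          ((Op_le_cent_Op hst B).trans (centralizer_le h5)))
      rw [h6]; exact bot_le
    · have h4 : Op t L ≤ A := hF.le_of_norm hB (Op_isPGroup t L) (Op_le t L) (le_normalizer_Op t L)
      have h5 : Op t L ≤ Op t A := (pcl_of_nilpotent h.nA : PCl t A) _ h4 (Op_isPGroup t L)
      exact h5.trans (Op_le_cent_Op e A)
  have h4 : Op r A ≤ Fit L := (le_inf hRL (le_centralizer_iff.1 h3)).trans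
    (inf_centralizer_Fit_le_iff.2 (Lay_eq_bot_of_solvable hL))
  exact hR0 (eq_bot_of_le_Fit hr0 (Op_isPGroup r A) h4)

include hns IH in
theorem Fac.false_of_two (h : Fac A B) (h2 : 2 ∣ Nat.card A) : False := by
  have hR0 : Op 2 A ≠ ⊥ := (sylIn_Op_of_nil h.nA).ne_bot h2
  obtain ⟨z, hz, hz1, hzc⟩ := exists_central_of_nil h.nA (Op_le 2 A) (le_normalizer_Op 2 A) hR0
  have hZ : Op 2 A ⊓ centralizer (A : Set G) ≠ ⊥ := fun e => hz1 (mem_bot.1 (e ▸ mem_inf.2 ⟨hz,
    mem_centralizer_iff.2 fun a ha => mem_centralizer_singleton_iff.1 (hzc ha)⟩))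
  obtain ⟨t, ht, hto⟩ := H8.exists_orderOf_eq_prime (dvd_card_of_isPGroup_ne_bot
    ((Op_isPGroup 2 A).to_le inf_le_left) hZ)
  have ht1 : t ≠ 1 := fun e => by simp [e] at hto
  have htt : t * t = 1 := by rw [← pow_two, ← hto, pow_orderOf_eq_one]
  have hO : pCore 2 G = ⊥ := by
    rw [← Op_top]
    exact eq_bot_of_top_le_solv hns (solvable_of_isPGroup (Op_isPGroup 2 ⊤)) (le_normalizer_Op 2 ⊤)
  obtain ⟨x, hx1, hxo, hx⟩ := exists_inverted_odd htt (by rw [hO]; exact ht1)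
  have hxo1 : orderOf x ≠ 1 := fun e => hx1 (orderOf_eq_one_iff.1 e)
  obtain ⟨q, hq, hqd⟩ := Nat.exists_prime_and_dvd hxo1
  haveI := Fact.mk hq
  have hq2 : q ≠ 2 := by
    rintro rfl
    exact (Nat.not_even_iff_odd.2 hxo) (even_iff_two_dvd.2 hqd)
  obtain ⟨y, hy, hyo⟩ := H8.exists_orderOf_eq_prime (H := zpowers x) (p := q) (by rwa [Nat.card_zpowers])
  have hty : t * y * t⁻¹ = y⁻¹ := by
    obtain ⟨k, rfl⟩ := mem_zpowers_iff.1 hy
    rw [← conj_zpow, hx, inv_zpow]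
  have hy1 : y ≠ 1 := fun e => hq.one_lt.ne (by simpa [e] using hyo)
  have hyp : IsPGroup q (zpowers y) := H8.isPGroup_zpowers (k := 1) (by simpa using hyo)
  have htn : t ∈ normalizer (zpowers y : Set G) := by
    rw [H8.mem_normalizer_iff_cj, H8.cj_zpowers, hty, zpowers_inv]
  have hy0 : zpowers y ≠ ⊥ := fun e => hy1 (zpowers_eq_bot.1 e)
  rcases h.dvd_or hq (hyo ▸ orderOf_dvd_natCard y) with hA | hB
  · obtain ⟨g, -, hg⟩ := (h.sylIn hA).exists_le_cj hyp le_top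
    have h3 : SylIn 2 (H2.cj g (Op 2 A)) ⊤ := (h.sylIn h2).cj_of_mem (mem_top g)
    have h4 : H2.cj g (Op 2 A) ≤ centralizer (zpowers y : Set G) :=
      ((H2.cj_mono g (Op_le_cent_Op hq2.symm A)).trans (H2.cj_centralizer g _).le).trans
        (centralizer_le hg)
    have h5 : t ∈ centralizer (zpowers y : Set G) := by
      refine mem_of_norm_of_coprime (normalizer_le_normalizer_centralizer _) htn ?_
      rw [hto]
      refine (Nat.Prime.coprime_iff_not_dvd Nat.prime_two).2 ?_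
      exact (h3.mono (h4.trans (centralizer_le_normalizer _)) le_top).not_dvd_relIndex_of_le h4
    have h6 : y * t = t * y := h5 y (mem_zpowers y)
    have h7 : y ^ 2 = 1 := by
      rw [← h6, mul_inv_cancel_right] at hty
      rw [pow_two]; nth_rewrite 1 [hty]; exact inv_mul_cancel y
    exact hq2 ((Nat.prime_dvd_prime_iff_eq hq Nat.prime_two).1 (hyo ▸ orderOf_dvd_of_pow_eq_one h7))
  · obtain ⟨g, -, hg⟩ := (h.symm.sylIn hB).exists_le_cj hyp le_top
    have h' := h.cj_right g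
    obtain ⟨s, hs, hsq, hsB⟩ := h'.symm.exists_prime_ne hns q
    haveI := Fact.mk hs
    have hg' : zpowers y ≤ Op q (H8.cj B g) := by rw [← cj_Op]; exact hg
    have h3 := h'.symm.Op_sup hns IH hsB (B0 := zpowers t) (fun e => ht1 (zpowers_eq_bot.1 e))
      (le_normalizer_of_le_centralizer (le_centralizer_iff.1 (zpowers_le.2 ht.2)))
    refine hy0 (eq_bot_of_top_le_solv hns (solvable_of_isPGroup hyp) ?_)
    rw [← h3]
    exact sup_le (le_normalizer_of_le_centralizer ((Op_le_cent_Op hsq _).trans (centralizer_le hg')))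
      (zpowers_le.2 htn)

include hns IH in
theorem Fac.false (h : Fac A B) : False := by
  have h2 : 2 ∣ Nat.card G := by
    by_contra h2
    exact hns (odd_order (Nat.odd_iff.2 (by omega)))
  rcases h.dvd_or Nat.prime_two h2 with h3 | h3
  · exact h.false_of_two hns IH h3
  · exact h.symm.false_of_two hns IH h3

end simple

theorem Fz.sup_Op_eq {A B N : Subgroup G} [N.Normal] (hA : Group.IsNilpotent A)
    (hB : Group.IsNilpotent B) (h1 : A ⊔ N = ⊤) (h2 : B ⊔ N = ⊤) (p : ℕ) [Fact p.Prime] :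
    Op p A ≤ Op p B ⊔ N := by
  let f := QuotientGroup.mk' N
  have e : ∀ X : Subgroup G, X ⊔ N = ⊤ → X.map f = ⊤ := fun X hX => by
    have := congrArg (Subgroup.map f) hX
    rwa [Subgroup.map_sup, QuotientGroup.map_mk'_self, sup_bot_eq, ← MonoidHom.range_eq_map,
      QuotientGroup.range_mk'] at this
  have s1 := (sylIn_Op_of_nil (p := p) hA).map f
  have s2 := (sylIn_Op_of_nil (p := p) hB).map f
  rw [e A h1] at s1
  rw [e B h2] at s2
  have h3 : (Op p A).map f ≤ (Op p B).map f := s2.normal_le s1.pgrp le_top (le_top.trans (by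
    rw [← e A h1]; exact le_normalizer_map' f (le_normalizer_Op p A)))
  rwa [Subgroup.map_le_map_iff, QuotientGroup.ker_mk'] at h3

theorem kw_aux {A N M K T : Subgroup G} (hK : Comp ⊤ K) (hN : N = ncl K ⊤) (h1 : A ⊔ N = ⊤)
    {A0 : Subgroup G} (hA0 : A ≤ normalizer (A0 : Set G)) (hM : A0 ⊔ N = M) (hT : T < M)
    (hTn : M ≤ normalizer (T : Set G)) (h0 : A0 ≤ T) : A0 ≤ centralizer (N : Set G) := by
  haveI : N.Normal := hN ▸ normal_of_top_le (le_normalizer_ncl K ⊤)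
  have h2 : ¬ N ≤ T := fun h => hT.not_ge (hM ▸ sup_le h0 h)
  rw [hN, ncl_le_iff] at h2
  push Not at h2
  obtain ⟨x, -, hx⟩ := h2
  have hc : ∀ g : G, Comp ⊤ (H8.cj K g) := fun g => hK.cj_of_mem (le_normalizer_top ⊤ (mem_top g))
  have hxN : H8.cj K x ≤ N := hN ▸ cj_le_ncl K (mem_top x)
  have h3 : ⁅T, H8.cj K x⁆ = ⊥ := ((hc x).le_or_comm_of_norm le_top
    (hxN.trans ((le_sup_right.trans hM.le).trans hTn))).resolve_left hx
  have hNL : N ≤ Lay ⊤ := hN ▸ ncl_le hK.le_Lay (le_normalizer_Lay ⊤)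
  rw [le_centralizer_iff, hN, ncl_le_iff]
  intro g _
  obtain ⟨a, ha, n, hn, e⟩ := H1.forall_mul_of_sup_eq_top h1 (g * x⁻¹)
  have h4 : H8.cj K g = H8.cj (H8.cj K x) a := by
    rw [← H8.cj_eq_of_mem_normalizer (Lay_le_normalizer (hc x) (hNL hn)), H8.cj_cj, H8.cj_cj,
      ← e, inv_mul_cancel_right]
  rw [h4, ← H8.cj_eq_of_mem_normalizer (hA0 ha), ← H8.cj_centralizer]
  exact H8.cj_mono (commutator_eq_bot_iff_le_centralizer.1 (commutator_eq_bot_symm
    (commutator_eq_bot_mono h3 h0 le_rfl))) a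

theorem kw_step {A B : Subgroup G} (hA : Group.IsNilpotent A) (hB : Group.IsNilpotent B)
    (h : Fz A B ⊤)
    (IH : ∀ A B L : Subgroup G, Group.IsNilpotent A → Group.IsNilpotent B → Fz A B L → L ≠ ⊤ →
      Group.IsSolvable L)
    (IQ : ∀ (N : Subgroup G) [N.Normal], N ≠ ⊥ → Group.IsSolvable (G ⧸ N)) : Group.IsSolvable G := by
  by_contra hns
  have hsn : ∀ (N : Subgroup G) [N.Normal], Group.IsSolvable N → N = ⊥ := fun N _ hN => by
    by_contra h0
    haveI := IQ N h0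
    exact hns (solvable_of_ker_le_range N.subtype (QuotientGroup.mk' N) (by simp))
  have hsup : ∀ (N : Subgroup G) [N.Normal], N ≠ ⊥ → A ⊔ N = ⊤ ∧ B ⊔ N = ⊤ := fun N _ h0 => by
    have : (A ⊔ N) ⊓ (B ⊔ N) = ⊤ := by
      by_contra hne
      exact h0 (hsn N (solvable_of_le (le_inf le_sup_right le_sup_right)
        (IH _ _ _ hA hB h.factorizer hne)))
    exact inf_eq_top_iff.1 this
  have hnt : Nontrivial G := by
    by_contra h1
    haveI := not_nontrivial_iff_subsingleton.1 h1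
    exact hns inferInstance
  have hcop : (Nat.card A).Coprime (Nat.card B) := by
    refine Nat.coprime_of_dvd fun p hp h1 h2 => ?_
    haveI := Fact.mk hp
    haveI : (Fit (⊤ : Subgroup G)).Normal := normal_of_top_le (le_normalizer_Fit ⊤)
    have hL : Lay (⊤ : Subgroup G) ≠ ⊥ := fun e => by
      have := Fs_eq_bot_iff.1 (show Fs (⊤ : Subgroup G) = ⊥ by
        rw [Fs_eq, e, hsn _ (solvable_of_nilpotent (Fit_nilpotent ⊤)), bot_sup_eq])
      exact top_ne_bot this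
    obtain ⟨K, hK⟩ : ∃ K, Comp (⊤ : Subgroup G) K := by
      by_contra hc
      exact hL (Lay_eq_bot_iff.2 fun K hK => hc ⟨K, hK⟩)
    obtain ⟨N, hN⟩ : ∃ N, N = ncl K ⊤ := ⟨_, rfl⟩
    haveI : N.Normal := hN ▸ normal_of_top_le (le_normalizer_ncl K ⊤)
    have hKN : K ≤ N := hN ▸ le_ncl K ⊤
    have hN0 : N ≠ ⊥ := fun e => hK.ne_bot (le_bot_iff.1 (hKN.trans e.le))
    have hC : centralizer (N : Set G) = ⊥ := by
      by_contra hc
      haveI := IQ _ hc
      have h3 : N ⊓ centralizer (N : Set G) = ⊥ := hsn _ (solvable_of_nilpotent (nilpotent_center N))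
      refine hN0 (hsn N (solvable_of_solvable_injective
        (f := (QuotientGroup.mk' (centralizer (N : Set G))).comp N.subtype) ?_))
      rw [injective_iff_map_eq_one]
      intro x hx
      have : (x : G) ∈ N ⊓ centralizer (N : Set G) := ⟨x.2, (QuotientGroup.eq_one_iff _).1 hx⟩
      rw [h3] at this
      exact Subtype.ext this
    obtain ⟨hAN, hBN⟩ := hsup N hN0
    have e : Op p B ⊔ N = Op p A ⊔ N := le_antisymm
      (sup_le (Fz.sup_Op_eq hB hA hBN hAN p) le_sup_right)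
      (sup_le (Fz.sup_Op_eq hA hB hAN hBN p) le_sup_right)
    obtain ⟨M, hM⟩ : ∃ M, Op p A ⊔ N = M := ⟨_, rfl⟩
    rw [hM] at e
    have hAM : Op p A ≤ M := le_sup_left.trans hM.le
    have hBM : Op p B ≤ M := le_sup_left.trans e.le
    obtain ⟨P, Q, hP, hQ, hPQ, hf⟩ := H1.exists_sylow_mul (fz_top_iff.1 h) p
    rw [(pcl_of_nilpotent hA).eq_Op hP.toSylIn, (pcl_of_nilpotent hB).eq_Op hQ.toSylIn] at hPQ hf
    have key : ∀ x : G, IsPGroup p ↥(Op p A ⊔ H8.cj (Op p B) x) ∧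
        ∀ g ∈ Op p A ⊔ H8.cj (Op p B) x, ∃ a ∈ Op p A, ∃ b ∈ H8.cj (Op p B) x, g = a * b := by
      intro x
      obtain ⟨a, ha, b, hb, rfl⟩ := fz_top_iff.1 h x
      have e1 := H8.cj_eq_of_mem_normalizer (le_normalizer_Op p A ha)
      rw [← H8.cj_cj, H8.cj_eq_of_mem_normalizer (le_normalizer_Op p B hb)]
      constructor
      · rw [← e1, ← H8.cj_sup]; exact H8.IsPGroup.cj hPQ.toSylIn.pgrp a
      · have := H1.forall_mul_conj_smul hf a
        simp only [← H8.cj_eq_smul, H8.cj_sup, e1] at this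
        exact this
    obtain ⟨T, hT, hT1, hT2⟩ := S0566.aux ((Op p A).subgroupOf M) ((Op p B).subgroupOf M) (fun x => by
      have e2 : ((Op p A).subgroupOf M ⊔ H8.cj ((Op p B).subgroupOf M) x) =
          (Op p A ⊔ H8.cj (Op p B) x).subgroupOf M := by
        rw [subgroupOf_sup hAM (cj_le_of_mem' hBM x.2)]
        congr 1
        ext y
        simp only [H8.mem_cj, mem_subgroupOf]
        rfl
      rw [← H8.cj_eq_smul, e2]
      refine ⟨fun e3 => qs_not_le_solvable hK.qs (solvable_of_isPGroup (key x).1) (hKN.trans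
        ((le_sup_right.trans hM.le).trans (subgroupOf_eq_top.1 e3))), fun g hg => ?_⟩
      obtain ⟨a, ha, b, hb, e3⟩ := (key x).2 g hg
      exact ⟨⟨a, hAM ha⟩, ha, ⟨b, cj_le_of_mem' hBM x.2 hb⟩, H8.mem_cj.2 (show _ ∈ Op p B from (H8.mem_cj (g := (x : G))).1 hb),
        Subtype.ext e3⟩)
    have hT3 : T.map M.subtype < M := lt_of_le_of_ne (map_subtype_le T)
      (fun e => hT1 (map_subtype_eq_self_iff.1 e))
    have hT4 := le_normalizer_map_subtype_of_normal T
    rcases hT2 with h3 | h3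
    · exact (sylIn_Op_of_nil hA).ne_bot h1 (le_bot_iff.1 (hC ▸ kw_aux hK hN hAN
        (le_normalizer_Op p A) hM hT3 hT4 ((le_map_subtype_iff hAM).2 h3)))
    · exact (sylIn_Op_of_nil hB).ne_bot h2 (le_bot_iff.1 (hC ▸ kw_aux hK hN hBN
        (le_normalizer_Op p B) e hT3 hT4 ((le_map_subtype_iff hBM).2 h3)))
  haveI : IsSimpleGroup G := ⟨fun N hN => by
    by_cases h0 : N = ⊥
    · exact Or.inl h0
    obtain ⟨h1, h2⟩ := hsup N h0
    have e : ∀ X : Subgroup G, X ⊔ N = ⊤ → N.index ∣ Nat.card X := fun X hX => by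
      rw [← relIndex_top_right, ← hX]
      exact relIndex_sup_dvd_card le_normalizer_of_normal
    exact Or.inr (index_eq_one.1 (Nat.eq_one_of_dvd_coprimes hcop (e A h1) (e B h2)))⟩
  exact Fac.false hns IH ⟨hA, hB, hcop, h⟩

/-- The Kegel-Wielandt theorem. -/
theorem kegel_wielandt {G : Type u} [Group G] [Finite G] {A B : Subgroup G}
    (hA : Group.IsNilpotent A) (hB : Group.IsNilpotent B) (h : Fz A B ⊤) : Group.IsSolvable G := by
  induction hn : Nat.card G using Nat.strong_induction_on generalizing G with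
  | _ n ih =>
  subst hn
  exact kw_step hA hB h
    (fun A B L hA hB h hL => ih _ (H2.card_lt_of_ne_top hL) (nilpotent_subgroupOf hA L)
      (nilpotent_subgroupOf hB L) h.subgroupOf rfl)
    (fun N _ hN => ih _ (H2.card_quot_lt hN) (nilpotent_map _ hA) (nilpotent_map _ hB)
      (h.map _ (QuotientGroup.mk'_surjective N)) rfl)

theorem Fz.Opp_le {A B N : Subgroup G} [N.Normal] (h : Fz A B ⊤) (hA : Group.IsNilpotent A)
    (hB : Group.IsNilpotent B) {p : ℕ} [Fact p.Prime] (hN : IsPGroup p N) (h2 : B ⊔ N = ⊤) :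
    Opp p A ≤ Opp p B := by
  have h3 : Opp p A ≤ B := fun x hx => by
    refine ((sn_of_nilpotent hA (inf_le_left : A ⊓ B ≤ A)).mem_of_coprime (H8.Opp_le p A hx) ?_).2
    rw [inf_relIndex_left, H1.forall_mul_iff_relIndex_eq_index.1 (fz_top_iff.1 h),
      ← relIndex_top_right, ← h2]
    obtain ⟨k, hk⟩ := IsPGroup.iff_card.1 hN
    exact Nat.Coprime.coprime_dvd_right ((relIndex_sup_dvd_card' le_normalizer_of_normal).trans
      hk.dvd) (Nat.Coprime.pow_right k (H8.orderOf_coprime_of_mem (Opp_coprime p A) hx))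
  exact le_Opp_of_sn (sn_of_nilpotent hB h3) (Opp_coprime p A)

theorem kegel_normal {G : Type u} [Group G] [Finite G] {A B : Subgroup G}
    (hA : Group.IsNilpotent A) (hB : Group.IsNilpotent B) (h : Fz A B ⊤) (hp : A ≠ ⊤ ∨ B ≠ ⊤) :
    ∃ N : Subgroup G, N.Normal ∧ N ≠ ⊤ ∧ (A ≤ N ∨ B ≤ N) := by
  induction hn : Nat.card G using Nat.strong_induction_on generalizing G with
  | _ n ih =>
  subst hn
  by_contra hc
  have hsup : ∀ (N : Subgroup G) [N.Normal], N ≠ ⊥ → A ⊔ N = ⊤ ∧ B ⊔ N = ⊤ := fun N _ h0 => by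
    by_contra h1
    have e : ∀ X : Subgroup G, X.map (QuotientGroup.mk' N) = ⊤ → X ⊔ N = ⊤ := fun X hX => by
      have := comap_map_eq (QuotientGroup.mk' N) X
      rwa [hX, comap_top, QuotientGroup.ker_mk', eq_comm] at this
    obtain ⟨M, h2, h3, h4⟩ := ih _ (H2.card_quot_lt h0) (nilpotent_map (QuotientGroup.mk' N) hA)
      (nilpotent_map _ hB) (h.map _ (QuotientGroup.mk'_surjective N))
      ((not_and_or.1 h1).imp (fun h e' => h (e A e')) (fun h e' => h (e B e'))) rfl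
    refine hc ⟨M.comap (QuotientGroup.mk' N), inferInstance, fun e' => h3 ?_,
      h4.imp map_le_iff_le_comap.1 map_le_iff_le_comap.1⟩
    rw [← map_comap_eq_self_of_surjective (QuotientGroup.mk'_surjective N) M, e',
      ← MonoidHom.range_eq_map, QuotientGroup.range_mk']
  have hs := kegel_wielandt hA hB h
  have ht : (⊤ : Subgroup G) ≠ ⊥ := fun e => hp.elim
    (fun h => h (eq_top_iff.2 (e.le.trans bot_le))) (fun h => h (eq_top_iff.2 (e.le.trans bot_le)))
  obtain ⟨p, hp', h0⟩ := exists_Op_ne_bot (solvable_of_equiv topEquiv.symm hs) ht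
  haveI := Fact.mk hp'
  haveI : (Op p (⊤ : Subgroup G)).Normal := normal_of_top_le (le_normalizer_Op p ⊤)
  obtain ⟨h1, h2⟩ := hsup _ h0
  have e : Opp p A = Opp p B := le_antisymm (h.Opp_le hA hB (Op_isPGroup p ⊤) h2)
    (h.symm.Opp_le hB hA (Op_isPGroup p ⊤) h1)
  haveI : (Opp p A).Normal := normal_of_top_le (by
    rw [← H1.sup_eq_top_of_forall_mul (fz_top_iff.1 h)]
    exact sup_le (le_normalizer_Opp p A) (e ▸ le_normalizer_Opp p B))
  by_cases hD : Opp p A = ⊥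
  · have h3 : IsPGroup p A := by
      have := Op_sup_Opp_of_nilpotent hA p
      rw [hD, sup_bot_eq] at this
      exact this ▸ Op_isPGroup p A
    have h4 : IsPGroup p (⊤ : Subgroup G) :=
      h1 ▸ H8.isPGroup_sup le_normalizer_of_normal h3 (Op_isPGroup p ⊤)
    rcases hp with hp | hp
    · obtain ⟨N, h5, h6, h7⟩ := (sn_of_isPGroup h4 le_top).exists_normal hp
      exact hc ⟨N, normal_of_top_le h7, h6.ne, Or.inl h5⟩
    · obtain ⟨N, h5, h6, h7⟩ := (sn_of_isPGroup h4 le_top).exists_normal hp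
      exact hc ⟨N, normal_of_top_le h7, h6.ne, Or.inr h5⟩
  · obtain ⟨h3, h4⟩ := hsup _ hD
    rw [sup_eq_left.2 (Opp_le p A)] at h3
    rw [e, sup_eq_left.2 (Opp_le p B)] at h4
    exact hp.elim (fun h => h h3) (fun h => h h4)

end Cfsg.Agent.H2
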