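import Cfsg.Agent.H2.Tame

/-! Control of Sylow intersections by families of subgroups. -/

namespace Cfsg.Agent.H2
open Subgroup Relation Cfsg.Agent.L

theorem rtg_of_chain {α : Type*} {r : α → α → Prop} : ∀ (n : ℕ) (c : Fin (n + 1) → α),
    (∀ i : Fin n, r (c i.castSucc) (c i.succ)) → ReflTransGen r (c 0) (c (Fin.last n))
  | 0, _, _ => .refl
  | n + 1, c, h => (rtg_of_chain n (fun i => c i.castSucc) fun i => h i.castSucc).tail
      (h (Fin.last n))

variable {G : Type*} [Group G] {p : ℕ}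

/-- one step of a chain of Sylow subgroups of `M` containing `D` -/
def CStp (p : ℕ) (𝓕 : Set (Subgroup G)) (M D S T : Subgroup G) : Prop :=
  SylIn p S M ∧ SylIn p T M ∧ ∃ X ∈ 𝓕, ∃ x ∈ X, SylIn p (S ⊓ X) X ∧ SylIn p (T ⊓ X) X ∧
    cj x S = T ∧ D ≤ T ⊓ X

/-- `𝓕` controls Sylow intersections in `M` -/
def CSI (p : ℕ) (𝓕 : Set (Subgroup G)) (M : Subgroup G) : Prop :=
  ∀ S T, SylIn p S M → SylIn p T M → S ⊓ T ≠ ⊥ → ReflTransGen (CStp p 𝓕 M (S ⊓ T)) S T

theorem CStp.imp {𝓕 𝓕' : Set (Subgroup G)} {M D D' S T : Subgroup G} (h : CStp p 𝓕 M D S T)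
    (h1 : 𝓕 ⊆ 𝓕') (h2 : D' ≤ D) : CStp p 𝓕' M D' S T := by
  obtain ⟨a, b, X, hX, x, hx, c, d, e, f⟩ := h
  exact ⟨a, b, X, h1 hX, x, hx, c, d, e, h2.trans f⟩

theorem rtg_cstp_imp {𝓕 𝓕' : Set (Subgroup G)} {M D D' S T : Subgroup G}
    (h : ReflTransGen (CStp p 𝓕 M D) S T) (h1 : 𝓕 ⊆ 𝓕') (h2 : D' ≤ D) :
    ReflTransGen (CStp p 𝓕' M D') S T := SF.rtg_mono (fun _ _ e => e.imp h1 h2) h

theorem CStp.map {G' : Type*} [Group G'] {𝓕 : Set (Subgroup G)} {M D S T : Subgroup G}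
    (h : CStp p 𝓕 M D S T) (f : G →* G') (hf : Function.Injective f) {𝓕' : Set (Subgroup G')}
    (h1 : ∀ X ∈ 𝓕, X.map f ∈ 𝓕') : CStp p 𝓕' (M.map f) (D.map f) (S.map f) (T.map f) := by
  obtain ⟨a, b, X, hX, x, hx, c, d, e, g⟩ := h
  refine ⟨a.map_inj f hf, b.map_inj f hf, _, h1 X hX, f x, mem_map_of_mem f hx, ?_, ?_, ?_, ?_⟩
  · rw [← Subgroup.map_inf _ _ f hf]; exact c.map_inj f hf
  · rw [← Subgroup.map_inf _ _ f hf]; exact d.map_inj f hf
  · rw [← e, cj, cj, Subgroup.map_map, Subgroup.map_map]; congr 1; ext y; simp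
  · rw [← Subgroup.map_inf _ _ f hf]; exact map_mono g

theorem CSI.map {G' : Type*} [Group G'] {𝓕 : Set (Subgroup G)} {M : Subgroup G}
    (h : CSI p 𝓕 M) (f : G →* G') (hf : Function.Injective f) {𝓕' : Set (Subgroup G')}
    (h1 : ∀ X ∈ 𝓕, X.map f ∈ 𝓕') : CSI p 𝓕' (M.map f) := by
  have key : ∀ S, SylIn p S (M.map f) → ∃ S₀, SylIn p S₀ M ∧ S₀.map f = S := fun S hS => by
    have e : (S.comap f).map f = S := map_comap_eq_self (hS.le.trans (map_le_range f M))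
    refine ⟨S.comap f, ⟨?_, hS.pgrp.comap_of_injective f hf, fun Q a b c => ?_⟩, e⟩
    · rw [← comap_map_eq_self_of_injective hf M]; exact comap_mono hS.le
    · rw [← hS.max (Q.map f) (map_mono a) (b.map f) (e ▸ map_mono c),
        comap_map_eq_self_of_injective hf]
  intro S T hS hT hne
  obtain ⟨S, hS', rfl⟩ := key S hS
  obtain ⟨T, hT', rfl⟩ := key T hT
  rw [← Subgroup.map_inf _ _ f hf] at hne ⊢
  exact SF.rtg_lift (Subgroup.map f) (fun _ _ e => e.map f hf h1)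
    (h S T hS' hT' fun e => hne (by rw [e, Subgroup.map_bot]))

theorem mem_sylowMembers {𝓕 : Set (Subgroup G)} {S X : Subgroup G} :
    X ∈ sylowMembers p 𝓕 S ↔ X ∈ 𝓕 ∧ SylIn p (S ⊓ X) X :=
  and_congr_right fun _ => ⟨fun ⟨P, e⟩ => e ▸ sylIn_map_subtype P, fun h => h.exists_sylow'⟩

theorem controls_iff {𝓕 : Set (Subgroup G)} : ControlsSylowIntersections p 𝓕 ↔ CSI p 𝓕 ⊤ := by
  constructor
  · intro h S T hS hT hne
    obtain ⟨S, rfl⟩ := hS.exists_sylow_top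
    obtain ⟨T, rfl⟩ := hT.exists_sylow_top
    by_cases e : S = T
    · rw [e]
    obtain ⟨n, c, X, x, h0, h1, h2⟩ := h S T e hne
    have := rtg_of_chain (r := CStp p 𝓕 ⊤ (S ⊓ T)) n (fun i => (c i : Subgroup G)) fun i => by
      obtain ⟨a, b, d, e, f⟩ := h2 i
      rw [mem_sylowMembers] at a b
      exact ⟨sylIn_top _, sylIn_top _, X i, a.1, x i, d, a.2, b.2, by
        rw [← e]; exact cj_cj_inv _ _, f⟩
    simpa only [h0, h1] using this
  · intro h S T _ hne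
    have : ∀ U, ReflTransGen (CStp p 𝓕 ⊤ (S ⊓ T)) S U → ∀ U' : Sylow p G, (U' : Subgroup G) = U →
        ReflTransGen (fun A B : Sylow p G => CStp p 𝓕 ⊤ (S ⊓ T) A B) S U' := by
      intro U hU
      induction hU with
      | refl => intro U' e; rw [Sylow.ext e]
      | tail _ e ih =>
        rintro U' rfl
        obtain ⟨A, rfl⟩ := e.1.exists_sylow_top
        exact (ih A rfl).tail e
    obtain ⟨n, c, h0, h1, h2⟩ := SF.chain_of_rtg
      (this _ (h S T (sylIn_top S) (sylIn_top T) hne) T rfl)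
    choose X hX x hx a b d e using fun i => (h2 i).2.2
    exact ⟨n, c, X, x, h0, h1, fun i => ⟨mem_sylowMembers.2 ⟨hX i, a i⟩,
      mem_sylowMembers.2 ⟨hX i, b i⟩, hx i, by rw [← d i]; exact cj_inv_cj _ _, e i⟩⟩

theorem mem_functorFamily {f : Subgroup G → Set (Subgroup G)} {M X : Subgroup G} :
    X ∈ functorFamily p f M ↔ ∃ P, SylIn p P M ∧ ∃ F ∈ f P, X = M ⊓ normalizer (F : Set G) :=
  ⟨fun ⟨P, h⟩ => ⟨_, sylIn_map_subtype P, h⟩, fun ⟨P, hP, h⟩ => by
    obtain ⟨P, rfl⟩ := hP.exists_sylow'; exact ⟨P, h⟩⟩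

theorem regular_iff {f : Subgroup G → Set (Subgroup G)} {M : Subgroup G} :
    IsFunctorRegular p f M ↔ CSI p (functorFamily p f M) M := by
  rw [IsFunctorRegular, controls_iff]
  have hle : ∀ X ∈ functorFamily p f M, X ≤ M := by
    rintro _ ⟨P, F, -, rfl⟩; exact inf_le_left
  constructor
  · intro h
    have := h.map M.subtype M.subtype_injective (𝓕' := functorFamily p f M) (by
      rintro _ ⟨X, hX, rfl⟩
      rwa [subgroupOf_map_subtype, inf_eq_left.2 (hle X hX)])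
    rwa [H8.map_subtype_top] at this
  · intro h S T hS hT hne
    have h1 := hS.map_inj _ M.subtype_injective
    have h2 := hT.map_inj _ M.subtype_injective
    rw [H8.map_subtype_top] at h1 h2
    have := h _ _ h1 h2 (by
      rwa [← Subgroup.map_inf _ _ _ M.subtype_injective, Ne, H8.map_subtype_eq_bot_iff])
    have := SF.rtg_lift (fun X : Subgroup G => X.subgroupOf M) (s := CStp p
      ((fun X : Subgroup G => X.subgroupOf M) '' functorFamily p f M) ⊤ (S ⊓ T)) (by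
      rintro A B ⟨a, b, X, hX, x, hx, c, d, e, g⟩
      have hXM := hle X hX
      refine ⟨?_, ?_, _, ⟨X, hX, rfl⟩, ⟨x, hXM hx⟩, hx, ?_, ?_, ?_, ?_⟩
      · rw [← subgroupOf_self]; exact (sylIn_subgroupOf_iff le_rfl a.le).2 a
      · rw [← subgroupOf_self]; exact (sylIn_subgroupOf_iff le_rfl b.le).2 b
      · exact (sylIn_subgroupOf_iff hXM (inf_le_right.trans hXM)).2 c
      · exact (sylIn_subgroupOf_iff hXM (inf_le_right.trans hXM)).2 d
      · ext y; rw [← e, mem_cj, mem_subgroupOf, mem_subgroupOf, mem_cj]; rfl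
      · intro y hy
        exact g ⟨mem_map_of_mem _ hy.1, mem_map_of_mem _ hy.2⟩) this
    simpa only [H8.subgroupOf_map_subtype_self] using this

theorem cj_mem_functorFamily {f : Subgroup G → Set (Subgroup G)} (hf : IsNormalizerFunctor p f)
    {M X : Subgroup G} (h : X ∈ functorFamily p f M) (g : G) :
    cj g X ∈ functorFamily p f (cj g M) := by
  obtain ⟨P, hP, F, hF, rfl⟩ := mem_functorFamily.1 h
  refine mem_functorFamily.2 ⟨_, hP.cj g, cj g F, ?_, by rw [cj_inf, cj_normalizer]⟩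
  rw [(hf P hP.pgrp).2 g]; exact ⟨F, hF, rfl⟩

variable [Finite G] [hp : Fact p.Prime]

theorem SylIn.le_of_sylIn_inf {A P M X : Subgroup G} (hA : SylIn p A M) (hP : SylIn p P M)
    (hPX : P ≤ X) (h : SylIn p (A ⊓ X) X) : A ≤ X :=
  inf_eq_left.1 (eq_of_le_of_card_ge inf_le_left (by
    rw [hA.card_eq hP]; exact h.card_le hP.pgrp hPX))

theorem CStp.functor {f : Subgroup G → Set (Subgroup G)} (hf : IsNormalizerFunctor p f)
    {M D A B : Subgroup G} (h : CStp p (functorFamily p f M) M D A B) :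
    ∃ P, SylIn p P M ∧ ∃ F ∈ f P, A ≤ normalizer (F : Set G) ∧ B ≤ normalizer (F : Set G) ∧
      D ≤ B ∧ ∃ x ∈ normalizer (F : Set G), cj x A = B := by
  obtain ⟨a, b, X, hX, x, hx, c, d, e, g⟩ := h
  obtain ⟨P, hP, F, hF, rfl⟩ := mem_functorFamily.1 hX
  have h1 : P ≤ M ⊓ normalizer (F : Set G) :=
    le_inf hP.le (le_normalizer.trans ((hf P hP.pgrp).1 F hF).2)
  exact ⟨P, hP, F, hF, (a.le_of_sylIn_inf hP h1 c).trans inf_le_right,
    (b.le_of_sylIn_inf hP h1 d).trans inf_le_right, g.trans inf_le_left, x, hx.2, e⟩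

theorem CStp.up {f : Subgroup G → Set (Subgroup G)} (hf : IsNormalizerFunctor p f)
    {M D A B S : Subgroup G} (h : CStp p (functorFamily p f M) M D A B) (hS : SylIn p S ⊤)
    (hSM : S ≤ M) : CStp p (functorFamily p f ⊤) ⊤ D A B := by
  have key : ∀ A, SylIn p A M → SylIn p A ⊤ := fun A hA =>
    hS.of_card_le hA.pgrp le_top (hA.card_le hS.pgrp hSM)
  obtain ⟨P, hP, F, hF, a, b, c, x, hx, e⟩ := h.functor hf
  refine ⟨key _ h.1, key _ h.2.1, _, mem_functorFamily.2 ⟨P, key _ hP, F, hF, rfl⟩, x,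
    mem_inf.2 ⟨mem_top _, hx⟩, ?_, ?_, e, le_inf c (le_inf le_top (c.trans b))⟩
  · rw [top_inf_eq, inf_eq_left.2 a]; exact (key _ h.1).mono a le_top
  · rw [top_inf_eq, inf_eq_left.2 b]; exact (key _ h.2.1).mono b le_top

theorem exists_sylIn_fact {S G₁ G₂ : Subgroup G} (hS : SylIn p S ⊤) (h1 : S ≤ G₁) (h2 : S ≤ G₂)
    (hfact : ∀ g : G, ∃ g₁ ∈ G₁, ∃ g₂ ∈ G₂, g = g₁ * g₂) (g : G) :
    ∃ U, SylIn p U ⊤ ∧ S ⊓ cj g S ≤ U ∧ U ≤ G₁ ⊓ cj g G₂ := by
  obtain ⟨a, ha, b, hb, rfl⟩ := hfact g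
  obtain ⟨U, hU, h⟩ := exists_sylIn_ge (hS.pgrp.to_le (inf_le_left (b := cj (a * b) S)))
    (inf_le_inf h1 (cj_mono (a * b) h2))
  refine ⟨U, hS.of_card_le hU.pgrp le_top ?_, h, hU.le⟩
  rw [← card_cj a S]
  refine hU.card_le (isPGroup_cj a hS.pgrp) (le_inf (cj_le_of_le h1 ha) ?_)
  rw [cj_mul, cj_eq_of_mem hb]; exact cj_mono a h2

theorem exists_maxPLocal {L : Subgroup G} (h : IsPLocal p L) : ∃ M, IsMaximalPLocal p M ∧ L ≤ M := by
  obtain ⟨M, hM, hm⟩ := wellFounded_gt.has_min {M | IsPLocal p M ∧ L ≤ M} ⟨L, h, le_rfl⟩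
  exact ⟨M, ⟨hM.1, fun N a b => by
    by_contra e; exact hm N ⟨a, hM.2.trans b⟩ (lt_of_le_of_ne b (Ne.symm e))⟩, hM.2⟩

theorem csi_union {f : Subgroup G → Set (Subgroup G)} (hf : IsNormalizerFunctor p f)
    (hf1 : ∀ P : Subgroup G, IsPGroup p ↥P → P ≠ ⊥ → ∀ F ∈ f P, F ≠ ⊥) :
    CSI p (functorFamily p f ⊤ ∪ {M | IsMaximalPLocal p M ∧ ¬ IsFunctorRegular p f M}) ⊤ := by
  set 𝓖 := functorFamily p f ⊤ ∪ {M | IsMaximalPLocal p M ∧ ¬ IsFunctorRegular p f M}
  suffices H : ∀ n (D : Subgroup G), D ≠ ⊥ → Nat.card G - Nat.card D < n → ∀ S T, SylIn p S ⊤ → SylIn p T ⊤ →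
      D ≤ S → D ≤ T → ReflTransGen (CStp p 𝓖 ⊤ D) S T from fun S T a b c =>
    H _ _ c (Nat.lt_succ_self _) S T a b inf_le_left inf_le_right
  intro n
  induction n with
  | zero => intro D _ h; omega
  | succ n ih =>
  intro D hD hn
  have ih1 : ∀ E, D < E → ∀ S T, SylIn p S ⊤ → SylIn p T ⊤ → E ≤ S → E ≤ T →
      ReflTransGen (CStp p 𝓖 ⊤ D) S T := fun E h S T a b c d =>
    rtg_cstp_imp (ih E (ne_bot_of_gt h) (by
      have := card_lt_of_lt h; have := card_le_card_group E; omega) S T a b c d) subset_rfl h.le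
  have claim : ∀ m L R, IsPLocal p L → SylIn p R L → Nat.card G - Nat.card R < m →
      ∀ A B V W, D < A → D < B → A ≤ L → B ≤ L → SylIn p V ⊤ → SylIn p W ⊤ → A ≤ V → B ≤ W →
      ReflTransGen (CStp p 𝓖 ⊤ D) V W := by
    intro m
    induction m with
    | zero => intro L R _ _ h; omega
    | succ m ih2 =>
    intro L R hL hR hm A B V W hA hB hAL hBL hV hW hAV hBW
    obtain ⟨M, hM, hLM⟩ := exists_maxPLocal hL
    obtain ⟨A', hA', h1⟩ := exists_sylIn_ge (hV.pgrp.to_le hAV) (hAL.trans hLM)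
    obtain ⟨B', hB', h2⟩ := exists_sylIn_ge (hW.pgrp.to_le hBW) (hBL.trans hLM)
    obtain ⟨V', hV', h3⟩ := exists_sylIn_ge hA'.pgrp (le_top (a := A'))
    obtain ⟨W', hW', h4⟩ := exists_sylIn_ge hB'.pgrp (le_top (a := B'))
    refine ((ih1 A hA V V' hV hV' hAV (h1.trans h3)).trans ?_).trans
      (ih1 B hB W' W hW' hW (h2.trans h4) hBW)
    have hA1 := hA.trans_le h1
    have hB1 := hB.trans_le h2
    have hinf : ∀ {C U}, SylIn p C M → SylIn p U ⊤ → C ≤ U → U ⊓ M = C := fun a b c =>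
      a.max _ inf_le_right (b.pgrp.to_le inf_le_left) (le_inf c a.le)
    by_cases hr : IsFunctorRegular p f M
    swap
    · obtain ⟨x, hx, e⟩ := hA'.exists_cj_eq hB'
      have h5 := hV'.cj_of_mem (mem_top x)
      have h6 : B' ≤ cj x V' := e ▸ cj_mono x h3
      refine .head ⟨hV', h5, M, .inr ⟨hM, hr⟩, x, hx, ?_, ?_, rfl,
        hB1.le.trans (le_inf h6 hB'.le)⟩ (ih1 B' hB1 _ _ h5 hW' h6 h4)
      · rwa [hinf hA' hV' h3]
      · rwa [hinf hB' h5 h6]
    have hc := rtg_cstp_imp (regular_iff.1 hr A' B' hA' hB'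
      (ne_bot_of_le_ne_bot hD (le_inf hA1.le hB1.le))) subset_rfl (le_inf hA1.le hB1.le)
    by_cases hs : SylIn p A' ⊤
    · have h5 : SylIn p B' ⊤ := hs.of_card_le hB'.pgrp le_top (hA'.card_eq hB').le
      rw [hs.max _ le_top hV'.pgrp h3, h5.max _ le_top hW'.pgrp h4]
      exact SF.rtg_mono (fun _ _ e => (e.up hf hs hA'.le).imp Set.subset_union_left le_rfl) hc
    suffices ∀ C, ReflTransGen (CStp p (functorFamily p f M) M D) A' C → D < C ∧
        ∀ U, SylIn p U ⊤ → C ≤ U → ReflTransGen (CStp p 𝓖 ⊤ D) V' U from (this _ hc).2 _ hW' h4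
    intro C hC
    induction hC with
    | refl => exact ⟨hA1, fun U a b => ih1 A' hA1 _ _ hV' a h3 b⟩
    | @tail C C' _ e ih3 =>
      obtain ⟨P, hP, F, hF, a, b, c, -⟩ := e.functor hf
      have hC' : D < C' := lt_of_le_of_ne c fun e' => by
        have := card_lt_of_lt hA1
        rw [hA'.card_eq e.2.1, e'] at this
        exact this.false
      refine ⟨hC', fun U hU d => ?_⟩
      obtain ⟨U', hU', d'⟩ := exists_sylIn_ge e.1.pgrp (le_top (a := C))
      refine (ih3.2 U' hU' d').trans ?_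
      have hF' := (hf P hP.pgrp).1 F hF
      have hP0 : P ≠ ⊥ := fun e' => by
        have := card_lt_of_lt (bot_le.trans_lt hA1)
        rw [hA'.card_eq hP, e'] at this
        exact this.false
      obtain ⟨R', hR', d''⟩ := exists_sylIn_ge hP.pgrp (le_normalizer.trans hF'.2)
      refine ih2 _ R' ⟨F, hP.pgrp.to_le hF'.1, hf1 P hP.pgrp hP0 F hF, rfl⟩ hR' ?_ C C' U' U
        ih3.1 hC' a b hU' hU d' d
      have h5 : P < R' := lt_of_le_of_ne d'' fun e' => hs (by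
        rw [← e'] at hR'
        have := sylIn_of_sylIn_normalizer (H := ⊤) (hR'.mono (le_inf le_top le_normalizer)
          (inf_le_right.trans hF'.2))
        exact this.of_card_le hA'.pgrp le_top (hP.card_eq hA').le)
      have h6 := card_lt_of_lt h5
      have h7 := hP.card_le hR.pgrp (hR.le.trans hLM)
      have := card_le_card_group R'
      omega
  intro S T hS hT h1 h2
  rcases h1.eq_or_lt with rfl | h1
  · rw [hS.max _ le_top hT.pgrp h2]
  rcases h2.eq_or_lt with rfl | h2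
  · exact absurd (hT.max _ le_top hS.pgrp h1.le) h1.ne'
  obtain ⟨R, hR⟩ := exists_sylIn p (normalizer (D : Set G))
  exact claim _ _ R ⟨D, hS.pgrp.to_le h1.le, hD, rfl⟩ hR (Nat.lt_succ_self _) _ _ S T
    (lt_inf_normalizer hS.pgrp h1) (lt_inf_normalizer hT.pgrp h2) inf_le_right inf_le_right hS hT
    inf_le_left inf_le_left

end Cfsg.Agent.H2
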